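import Mathlib
import Cfsg.Agent.Lib.Helper14.DG33.Defs

/-!
# DG33 (S3670): auxiliary lemmas for the Gram packages
-/

set_option autoImplicit false

namespace Cfsg.Agent.Lib.Helper10.DG33

open Cfsg Cfsg.Agent.Lib.Helper14.DG33
open scoped ComplexConjugate

universe u

variable {G : Type u} [Group G]

theorem ext_mem (B : Subgroup G) (θ : B → ℂ) {y : G} (hy : y ∈ B) :
    extendByZero B θ y = θ ⟨y, hy⟩ := by
  unfold extendByZero
  exact Subtype.val_injective.extend_apply θ 0 ⟨y, hy⟩

theorem ext_not_mem (B : Subgroup G) (θ : B → ℂ) {y : G} (hy : y ∉ B) :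
    extendByZero B θ y = 0 := by
  unfold extendByZero
  rw [Function.extend_apply']
  · rfl
  · rintro ⟨a, rfl⟩
    exact hy a.2

theorem lamJ_class {B : Subgroup G} (lam : B →* ℂˣ) (j : ℕ) :
    IsClassFunction B (lamJ lam j) := by
  intro g h
  unfold lamJ
  rw [map_mul, map_mul, map_inv, mul_comm (lam h), mul_inv_cancel_right]

theorem psi8_class {B P Z : Subgroup G} {t w : G} (R : RawDatum G B P Z t w) :
    IsClassFunction B (psi8 B P Z) := by
  classical
  intro g h
  have hZ : ((h * g * h⁻¹ : B) : G) ∈ Z ↔ (g : G) ∈ Z := by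
    constructor
    · intro hz
      have := R.Znorm ((h⁻¹ : B) : G) (h⁻¹).2 _ hz
      simpa [mul_assoc] using this
    · intro hz
      have := R.Znorm h h.2 _ hz
      simpa using this
  have hP : ((h * g * h⁻¹ : B) : G) ∈ P ↔ (g : G) ∈ P := by
    constructor
    · intro hz
      have := R.Pnorm ((h⁻¹ : B) : G) (h⁻¹).2 _ hz
      simpa [mul_assoc] using this
    · intro hz
      have := R.Pnorm h h.2 _ hz
      simpa using this
  show (if ((h * g * h⁻¹ : B) : G) ∈ Z then (8 : ℂ) else
      if ((h * g * h⁻¹ : B) : G) ∈ P then -1 else 0) =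
    (if (g : G) ∈ Z then (8 : ℂ) else if (g : G) ∈ P then -1 else 0)
  by_cases h1 : (g : G) ∈ Z
  · rw [if_pos (hZ.mpr h1), if_pos h1]
  · rw [if_neg (fun h' => h1 (hZ.mp h')), if_neg h1]
    by_cases h2 : (g : G) ∈ P
    · rw [if_pos (hP.mpr h2), if_pos h2]
    · rw [if_neg (fun h' => h2 (hP.mp h')), if_neg h2]

/-- The `T`-term of the Mackey formula against `psi8`: only `y = 1` contributes. -/
theorem tterm_psi8 [Fintype G] {B P Z : Subgroup G} {t w : G} (R : RawDatum G B P Z t w)
    (φ : B → ℂ) :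
    ∑ y : G, extendByZero B φ y * conj (extendByZero B (psi8 B P Z) (w⁻¹ * y * w)) =
      φ 1 * 8 := by
  rw [Finset.sum_eq_single (1 : G)]
  · rw [ext_mem B φ B.one_mem]
    have h1 : w⁻¹ * 1 * w = (1 : G) := by group
    rw [h1, ext_mem B _ B.one_mem]
    have h8 : psi8 B P Z ⟨1, B.one_mem⟩ = 8 := by
      unfold psi8
      simp [Z.one_mem]
    rw [h8]
    have h8' : (starRingEnd ℂ) (8 : ℂ) = 8 := Complex.conj_ofNat 8
    rw [h8']
    rfl
  · intro y _ hy1
    by_cases hyB : y ∈ B
    · by_cases hwB : w⁻¹ * y * w ∈ B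
      · have hyT := (R.inter y hyB).mp hwB
        obtain ⟨n, rfl⟩ := mem_powers_iff_mem_zpowers.mpr hyT
        have hconj : w⁻¹ * t ^ n * w = t ^ (5 * n) := by
          have h0 : w⁻¹ * t ^ n * w = (w⁻¹ * t * w) ^ n := by
            have := conj_pow (a := w⁻¹) (b := t) (i := n)
            simpa using this.symm
          rw [h0, R.wt, ← pow_mul]
        rw [hconj]
        have hnP : t ^ (5 * n) ∉ P := by
          intro hP
          have h5 := R.PT _ hP
          have h8 : t ^ 8 = 1 := by
            rw [← R.ordt]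
            exact pow_orderOf_eq_one t
          apply hy1
          have e1 : t ^ (16 * n) = 1 := by
            rw [show 16 * n = 8 * (2 * n) by ring, pow_mul, h8, one_pow]
          have e2 : t ^ (15 * n) = 1 := by
            rw [show 15 * n = (5 * n) * 3 by ring, pow_mul, h5, one_pow]
          have e3 : t ^ (16 * n) = t ^ (15 * n) * t ^ n := by
            rw [← pow_add]
            congr 1
            ring
          rw [e1, e2, one_mul] at e3
          exact e3.symm
        have hmem : t ^ (5 * n) ∈ B := B.pow_mem R.tB _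
        rw [ext_mem B _ hmem]
        have hnZ : t ^ (5 * n) ∉ Z := fun h => hnP (R.ZP h)
        have h0 : psi8 B P Z ⟨t ^ (5 * n), hmem⟩ = 0 := by
          unfold psi8
          simp [hnP, hnZ]
        rw [h0]
        simp
      · rw [ext_not_mem B _ hwB]
        simp
    · rw [ext_not_mem B _ hyB]
      simp
  · intro h
    exact absurd (Finset.mem_univ _) h

theorem sum_ind (B S : Subgroup G) [Fintype B] (hS : S ≤ B)
    [DecidablePred fun b : B => (b : G) ∈ S] :
    (∑ b : B, if (b : G) ∈ S then (1 : ℂ) else 0) = (Nat.card S : ℂ) := by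
  rw [Finset.sum_boole]
  congr 1
  rw [← Nat.card_congr (Subgroup.subgroupOfEquivOfLe hS).toEquiv, ← Fintype.card_subtype,
    ← Nat.card_eq_fintype_card]
  rfl

theorem inner_lam_psi [Fintype G] {B P Z : Subgroup G} [Fintype B] {t w : G}
    (D : Datum G B P Z t w) {lam : B →* ℂˣ} (hlam : LamSpec B P t lam) (j : ℕ) :
    classInner (lamJ lam j) (psi8 B P Z) = 0 := by
  classical
  unfold classInner
  have key : ∀ b : B, lamJ lam j b * conj (psi8 B P Z b) =
      9 * (if (b : G) ∈ Z then (1 : ℂ) else 0) - (if (b : G) ∈ P then (1 : ℂ) else 0) := by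
    intro b
    unfold psi8 lamJ
    by_cases hZ : (b : G) ∈ Z
    · have hP : (b : G) ∈ P := D.raw.ZP hZ
      have h1 : lam b = 1 := (hlam.ker b).mpr hP
      simp [hZ, hP, h1]
      rw [Complex.conj_ofNat]
      norm_num
    · by_cases hP : (b : G) ∈ P
      · have h1 : lam b = 1 := (hlam.ker b).mpr hP
        simp [hZ, hP, h1]
      · simp [hZ, hP]
  rw [Finset.sum_congr rfl (fun b _ => key b), Finset.sum_sub_distrib, ← Finset.mul_sum,
    sum_ind B Z (D.raw.ZP.trans D.raw.PB), sum_ind B P D.raw.PB, D.cardZ, D.cardP]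
  norm_num

theorem inner_psi_psi [Fintype G] {B P Z : Subgroup G} [Fintype B] {t w : G}
    (D : Datum G B P Z t w) :
    classInner (psi8 B P Z) (psi8 B P Z) = 1 := by
  classical
  unfold classInner
  have key : ∀ b : B, psi8 B P Z b * conj (psi8 B P Z b) =
      63 * (if (b : G) ∈ Z then (1 : ℂ) else 0) + (if (b : G) ∈ P then (1 : ℂ) else 0) := by
    intro b
    unfold psi8
    by_cases hZ : (b : G) ∈ Z
    · have hP : (b : G) ∈ P := D.raw.ZP hZ
      simp [hZ, hP]
      rw [Complex.conj_ofNat]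
      norm_num
    · by_cases hP : (b : G) ∈ P
      · simp [hZ, hP]
      · simp [hZ, hP]
  rw [Finset.sum_congr rfl (fun b _ => key b), Finset.sum_add_distrib, ← Finset.mul_sum,
    sum_ind B Z (D.raw.ZP.trans D.raw.PB), sum_ind B P D.raw.PB, D.cardZ, D.cardP, D.cardB]
  norm_num

end Cfsg.Agent.Lib.Helper10.DG33
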