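import Mathlib
import Cfsg.Agent.Lib.Helper14.DG33.Defs
import Cfsg.Agent.Lib.Helper10.DG33.GramAux

/-!
# DG33 (S3670) package [GRAMLL]
-/

set_option autoImplicit false

namespace Cfsg.Agent.Lib.Helper10.DG33

open Cfsg Cfsg.Agent.Lib.Helper14.DG33
open scoped ComplexConjugate

universe u

variable {G : Type u} [Group G]

theorem prim_mul_conj_eq_one {ζ : ℂ} (hζ : IsPrimitiveRoot ζ 8) (a b : ℕ) :
    ζ ^ a * conj (ζ ^ b) = 1 ↔ ζ ^ a = ζ ^ b := by
  have hn : ‖ζ ^ b‖ = 1 := by
    rw [norm_pow, hζ.norm'_eq_one (by norm_num), one_pow]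
  rw [← Complex.inv_eq_conj hn]
  have h0 : ζ ^ b ≠ 0 := pow_ne_zero _ (hζ.ne_zero (by norm_num))
  rw [mul_inv_eq_one₀ h0]

theorem inner_lam_lam [Fintype G] {B P Z : Subgroup G} [Fintype B] {t w : G}
    (D : Datum G B P Z t w) {lam : B →* ℂˣ} (hlam : LamSpec B P t lam) (i j : ℕ)
    (hi : i < 8) (hj : j < 8) :
    classInner (lamJ lam i) (lamJ lam j) = if i = j then 1 else 0 := by
  unfold classInner
  set ζ : ℂ := ((lam ⟨t, D.raw.tB⟩ : ℂˣ) : ℂ) with hζdef
  have hζ : IsPrimitiveRoot ζ 8 := hlam.prim D.raw.tB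
  set c : B → ℂ := fun b => lamJ lam i b * conj (lamJ lam j b) with hc
  have hmul : ∀ a b : B, c (a * b) = c a * c b := by
    intro a b
    simp only [hc, lamJ, map_mul, Units.val_mul, mul_pow]
    ring
  have hB : (Nat.card B : ℂ) ≠ 0 := by
    rw [D.cardB]
    norm_num
  by_cases hij : i = j
  · subst hij
    rw [if_pos rfl]
    have h1 : ∀ b : B, c b = 1 := by
      intro b
      have hn : ‖((lam b : ℂˣ) : ℂ)‖ = 1 := by
        have hpow : ((lam b : ℂˣ) : ℂ) ^ (Nat.card B) = 1 := by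
          rw [← Units.val_pow_eq_pow_val, ← map_pow, pow_card_eq_one', map_one, Units.val_one]
        exact Complex.norm_eq_one_of_pow_eq_one hpow (by rw [D.cardB]; norm_num)
      simp only [hc, lamJ]
      rw [Complex.mul_conj', norm_pow, hn]
      simp
    rw [Finset.sum_congr rfl (fun b _ => h1 b)]
    simp only [Finset.sum_const, Finset.card_univ, nsmul_eq_mul, mul_one]
    rw [← Nat.card_eq_fintype_card]
    exact inv_mul_cancel₀ hB
  · rw [if_neg hij]
    have hct : c ⟨t, D.raw.tB⟩ ≠ 1 := by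
      intro h
      have h' : ζ ^ i * conj (ζ ^ j) = 1 := h
      rw [prim_mul_conj_eq_one hζ] at h'
      exact hij (hζ.pow_inj hi hj h')
    have hS : ∑ b : B, c b = c ⟨t, D.raw.tB⟩ * ∑ b : B, c b := by
      rw [Finset.mul_sum, ← Equiv.sum_comp (Equiv.mulLeft (⟨t, D.raw.tB⟩ : B)) c]
      exact Finset.sum_congr rfl (fun b _ => hmul _ b)
    have hS0 : ∑ b : B, c b = 0 := by
      have h0 : (1 - c ⟨t, D.raw.tB⟩) * ∑ b : B, c b = 0 := by
        rw [sub_mul, one_mul, ← hS, sub_self]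
      rcases mul_eq_zero.mp h0 with h | h
      · exact absurd (sub_eq_zero.mp h).symm hct
      · exact h
    rw [hS0, mul_zero]

theorem tterm_lam [Fintype G] {B P Z : Subgroup G} {t w : G}
    (D : Datum G B P Z t w) {lam : B →* ℂˣ} (hlam : LamSpec B P t lam) (i j : ℕ)
    (hi : i < 8) (hj : j < 8) :
    ∑ y : G, extendByZero B (lamJ lam i) y * conj (extendByZero B (lamJ lam j) (w⁻¹ * y * w)) =
      if i = (5 * j) % 8 then 8 else 0 := by
  classical
  have R := D.raw
  set ζ : ℂ := ((lam ⟨t, R.tB⟩ : ℂˣ) : ℂ) with hζdef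
  have hζ : IsPrimitiveRoot ζ 8 := hlam.prim R.tB
  set η : ℂ := ζ ^ i * conj (ζ ^ (5 * j)) with hη
  have h8 : t ^ 8 = 1 := by
    rw [← R.ordt]
    exact pow_orderOf_eq_one t
  have hconj : ∀ n : ℕ, w⁻¹ * t ^ n * w = t ^ (5 * n) := by
    intro n
    have h0 : w⁻¹ * t ^ n * w = (w⁻¹ * t * w) ^ n := by
      have := conj_pow (a := w⁻¹) (b := t) (i := n)
      simpa using this.symm
    rw [h0, R.wt, ← pow_mul]
  have hlamt : ∀ n : ℕ, ∀ h : t ^ n ∈ B, ((lam ⟨t ^ n, h⟩ : ℂˣ) : ℂ) = ζ ^ n := by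
    intro n h
    have h0 : (⟨t ^ n, h⟩ : B) = (⟨t, R.tB⟩ : B) ^ n := Subtype.ext (by simp)
    rw [h0, map_pow, Units.val_pow_eq_pow_val]
  have hg : ∀ k : ℕ, extendByZero B (lamJ lam i) (t ^ k) *
      conj (extendByZero B (lamJ lam j) (w⁻¹ * t ^ k * w)) = η ^ k := by
    intro k
    rw [hconj, ext_mem B _ (B.pow_mem R.tB k), ext_mem B _ (B.pow_mem R.tB (5 * k))]
    unfold lamJ
    rw [hlamt, hlamt, hη, mul_pow, ← map_pow]
    congr 1
    · ring
    · congr 1
      ring
  have hsub : ∑ y : G, extendByZero B (lamJ lam i) y *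
        conj (extendByZero B (lamJ lam j) (w⁻¹ * y * w)) =
      ∑ y ∈ (Finset.range 8).image (fun k => t ^ k), extendByZero B (lamJ lam i) y *
        conj (extendByZero B (lamJ lam j) (w⁻¹ * y * w)) := by
    symm
    apply Finset.sum_subset (Finset.subset_univ _)
    intro y _ hy
    by_cases hyB : y ∈ B
    · by_cases hwB : w⁻¹ * y * w ∈ B
      · exfalso
        have hyT := (R.inter y hyB).mp hwB
        obtain ⟨n, rfl⟩ := mem_powers_iff_mem_zpowers.mpr hyT
        apply hy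
        rw [Finset.mem_image]
        refine ⟨n % 8, Finset.mem_range.mpr (Nat.mod_lt _ (by norm_num)), ?_⟩
        show t ^ (n % 8) = t ^ n
        exact (pow_eq_pow_mod n h8).symm
      · rw [ext_not_mem B _ hwB]
        simp
    · rw [ext_not_mem B _ hyB]
      simp
  rw [hsub, Finset.sum_image]
  · rw [Finset.sum_congr rfl (fun k _ => hg k)]
    have hη8 : η ^ 8 = 1 := by
      rw [hη, mul_pow, ← map_pow, ← pow_mul, ← pow_mul, mul_comm i 8, mul_comm (5 * j) 8,
        pow_mul, pow_mul, hζ.pow_eq_one]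
      simp
    have hiff : η = 1 ↔ i = (5 * j) % 8 := by
      rw [hη, prim_mul_conj_eq_one hζ, pow_eq_pow_mod (5 * j) hζ.pow_eq_one]
      constructor
      · intro h
        exact hζ.pow_inj hi (Nat.mod_lt _ (by norm_num)) h
      · intro h
        rw [← h]
    by_cases h1 : η = 1
    · rw [if_pos (hiff.mp h1), h1]
      simp
    · rw [if_neg (fun h => h1 (hiff.mpr h))]
      have hgeo := mul_geom_sum η 8
      rw [hη8, sub_self] at hgeo
      rcases mul_eq_zero.mp hgeo with h | h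
      · exact absurd (sub_eq_zero.mp h) h1
      · exact h
  · intro a ha b hb hab
    exact pow_injOn_Iio_orderOf (by rw [R.ordt]; exact Finset.mem_range.mp ha)
      (by rw [R.ordt]; exact Finset.mem_range.mp hb) hab

theorem pkgGramLL : PkgGramLL.{u} := by
  intro G _ _ B P Z t w D lam hlam hMackey i j hi hj
  letI : Fintype B := Fintype.ofFinite B
  have hTB : Subgroup.zpowers t ≤ B := by
    rw [Subgroup.zpowers_le]
    exact D.raw.tB
  rw [hMackey G B (Subgroup.zpowers t) w hTB D.raw.wB D.raw.bruhat D.raw.inter _ _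
    (lamJ_class lam i) (lamJ_class lam j), inner_lam_lam D hlam i j hi hj,
    tterm_lam D hlam i j hi hj, Nat.card_zpowers, D.raw.ordt]
  congr 1
  split_ifs <;> norm_num

end Cfsg.Agent.Lib.Helper10.DG33
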