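import Mathlib
import Cfsg.Agent.Lib.Helper14.DG33.Defs
import Cfsg.Agent.Lib.Helper10.DG33.GramAux

/-!
# DG33 (S3670) package [GRAMPP]
-/

set_option autoImplicit false

namespace Cfsg.Agent.Lib.Helper10.DG33

open Cfsg Cfsg.Agent.Lib.Helper14.DG33
open scoped ComplexConjugate

universe u

theorem pkgGramPP : PkgGramPP.{u} := by
  intro G _ _ B P Z t w D lam hlam hMackey
  letI : Fintype B := Fintype.ofFinite B
  have hTB : Subgroup.zpowers t ≤ B := by
    rw [Subgroup.zpowers_le]
    exact D.raw.tB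
  rw [hMackey G B (Subgroup.zpowers t) w hTB D.raw.wB D.raw.bruhat D.raw.inter _ _
    (psi8_class D.raw) (psi8_class D.raw), inner_psi_psi D, tterm_psi8 D.raw,
    Nat.card_zpowers, D.raw.ordt]
  have h1 : psi8 B P Z 1 = 8 := by
    unfold psi8
    simp [Z.one_mem]
  rw [h1]
  norm_num

end Cfsg.Agent.Lib.Helper10.DG33
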