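import Mathlib
import Cfsg.Agent.Lib.Helper19.DG33.Model
import Cfsg.Agent.Lib.Helper86.UnBase

/-!
# DG33 (S3670) sub-package [RPZ]: `Z` central in `P`, `P / Z` abelian, `Z` the whole centre,
`P ≠ Z` in the antidiagonal model of `SU(3,3)`
-/

set_option autoImplicit false

namespace Cfsg.Agent.Lib.Helper10.DG33

open Matrix Cfsg.Agent.Lib.Helper45 Cfsg.Agent.Lib.Helper86.Un Cfsg.Agent.Lib.Helper86.SU3
  Cfsg.Agent.Lib.Helper86.SL3

universe u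

variable {F : Type u} [Field F] [Fintype F]

theorem mat_Pm_eq (hF : Fintype.card F = 3 ^ 2) {p : UJ 3 (sigmaQ hF)}
    (hp : p ∈ Cfsg.Agent.Lib.Helper19.DG33.Pm hF) :
    mat p = !![1, mat p 0 1, mat p 0 2; 0, 1, mat p 1 2; 0, 0, 1] := by
  obtain ⟨⟨h10, h20, h21⟩, h00, h11, h22⟩ := hp
  conv_lhs => rw [Matrix.eta_fin_three (mat p), h10, h20, h21, h00, h11, h22]

theorem Pm_rel (hF : Fintype.card F = 3 ^ 2) {p : UJ 3 (sigmaQ hF)}
    (hp : p ∈ Cfsg.Agent.Lib.Helper19.DG33.Pm hF) :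
    mat p 1 2 = -sigmaQ hF (mat p 0 1) := by
  have hv := (valid_mat p).2
  rw [mat_Pm_eq hF hp, adj3, Matrix.mul_fin_three, Matrix.one_fin_three] at hv
  have h : sigmaQ hF 0 * mat p 0 2 + sigmaQ hF 1 * mat p 1 2 + sigmaQ hF (mat p 0 1) * 1 = 0 :=
    congrFun (congrFun hv 1) 2
  rw [map_zero, map_one] at h
  linear_combination h

theorem valid_uni (hF : Fintype.card F = 3 ^ 2) (x y : F)
    (h : y + sigmaQ hF y + x * sigmaQ hF x = 0) :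
    ValidU (sigmaQ hF) !![1, x, y; 0, 1, -sigmaQ hF x; 0, 0, 1] := by
  constructor
  · rw [det3]
    ring
  · rw [adj3, Matrix.mul_fin_three, Matrix.one_fin_three]
    apply m3_ext <;>
      (try simp only [map_one, map_zero, map_neg, Cfsg.Agent.Lib.Helper19.DG33.sig_sig hF]) <;>
      first | ring1 | linear_combination h

theorem ofMat_uni_mem (hF : Fintype.card F = 3 ^ 2) (x y : F)
    (h : y + sigmaQ hF y + x * sigmaQ hF x = 0) :
    ofMat (sigmaQ hF) !![1, x, y; 0, 1, -sigmaQ hF x; 0, 0, 1] ∈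
      Cfsg.Agent.Lib.Helper19.DG33.Pm hF := by
  rw [Cfsg.Agent.Lib.Helper19.DG33.mem_Pm, Cfsg.Agent.Lib.Helper19.DG33.mem_Bm,
    mat_ofMat (valid_uni hF x y h)]
  exact ⟨⟨rfl, rfl, rfl⟩, rfl, rfl, rfl⟩

theorem Pm_mul01 (hF : Fintype.card F = 3 ^ 2) {p q : UJ 3 (sigmaQ hF)}
    (hp : p ∈ Cfsg.Agent.Lib.Helper19.DG33.Pm hF) (hq : q ∈ Cfsg.Agent.Lib.Helper19.DG33.Pm hF) :
    mat (p * q) 0 1 = mat p 0 1 + mat q 0 1 ∧ mat (p * q) 1 2 = mat p 1 2 + mat q 1 2 := by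
  obtain ⟨⟨p10, p20, p21⟩, p00, p11, p22⟩ := hp
  obtain ⟨⟨q10, q20, q21⟩, q00, q11, q22⟩ := hq
  simp only [Cfsg.Agent.Lib.Helper19.DG33.mat_mul', Matrix.mul_apply, Fin.sum_univ_three]
  constructor
  · rw [p00, q11, q21]
    ring
  · rw [p10, p11, q22]
    ring

theorem Pm_inv01 (hF : Fintype.card F = 3 ^ 2) {p : UJ 3 (sigmaQ hF)}
    (hp : p ∈ Cfsg.Agent.Lib.Helper19.DG33.Pm hF) :
    mat p⁻¹ 0 1 = -mat p 0 1 ∧ mat p⁻¹ 1 2 = -mat p 1 2 := by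
  have h := Pm_mul01 hF hp ((Cfsg.Agent.Lib.Helper19.DG33.Pm hF).inv_mem hp)
  rw [mul_inv_cancel, Cfsg.Agent.Lib.Helper19.DG33.mat_one'] at h
  have e1 : (1 : Matrix (Fin 3) (Fin 3) F) 0 1 = 0 := Matrix.one_apply_ne (by decide)
  have e2 : (1 : Matrix (Fin 3) (Fin 3) F) 1 2 = 0 := Matrix.one_apply_ne (by decide)
  obtain ⟨h1, h2⟩ := h
  rw [e1] at h1
  rw [e2] at h2
  exact ⟨eq_neg_of_add_eq_zero_right h1.symm, eq_neg_of_add_eq_zero_right h2.symm⟩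

theorem pkgRPZ : Cfsg.Agent.Lib.Helper19.DG33.PkgRPZ.{u} := by
  intro F _ _ hF
  refine ⟨?_, ?_, ?_, ?_⟩
  · intro z hz p hp
    apply mat_injective
    rw [Cfsg.Agent.Lib.Helper19.DG33.mat_mul', Cfsg.Agent.Lib.Helper19.DG33.mat_mul',
      mat_Pm_eq hF hz.1, mat_Pm_eq hF hp, hz.2.1, hz.2.2, Matrix.mul_fin_three,
      Matrix.mul_fin_three]
    apply m3_ext <;> ring
  · intro p hp q hq
    have hpq := (Cfsg.Agent.Lib.Helper19.DG33.Pm hF).mul_mem hp hq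
    have hpi := (Cfsg.Agent.Lib.Helper19.DG33.Pm hF).inv_mem hp
    have hqi := (Cfsg.Agent.Lib.Helper19.DG33.Pm hF).inv_mem hq
    have h3 := (Cfsg.Agent.Lib.Helper19.DG33.Pm hF).mul_mem hpq hpi
    refine ⟨(Cfsg.Agent.Lib.Helper19.DG33.Pm hF).mul_mem h3 hqi, ?_, ?_⟩
    · rw [(Pm_mul01 hF h3 hqi).1, (Pm_mul01 hF hpq hpi).1, (Pm_mul01 hF hp hq).1,
        (Pm_inv01 hF hp).1, (Pm_inv01 hF hq).1]
      ring
    · rw [(Pm_mul01 hF h3 hqi).2, (Pm_mul01 hF hpq hpi).2, (Pm_mul01 hF hp hq).2,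
        (Pm_inv01 hF hp).2, (Pm_inv01 hF hq).2]
      ring
  · intro p hp hpz
    have hrel := Pm_rel hF hp
    have hx : mat p 0 1 ≠ 0 := by
      intro h0
      apply hpz
      refine ⟨hp, h0, ?_⟩
      rw [hrel, h0, map_zero, neg_zero]
    obtain ⟨c, hc⟩ := (herm_sigmaQ hF).nonfix
    obtain ⟨y', hy'⟩ := (herm_sigmaQ hF).exists_Q (mat p 0 1 * c)
    have hv := valid_uni hF _ _ hy'
    refine ⟨ofMat (sigmaQ hF) !![1, mat p 0 1 * c, y'; 0, 1, -sigmaQ hF (mat p 0 1 * c); 0, 0, 1],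
      ofMat_uni_mem hF _ _ hy', ?_⟩
    intro hcomm
    have h1 := congrArg mat hcomm
    rw [Cfsg.Agent.Lib.Helper19.DG33.mat_mul', Cfsg.Agent.Lib.Helper19.DG33.mat_mul',
      mat_ofMat hv, mat_Pm_eq hF hp, Matrix.mul_fin_three, Matrix.mul_fin_three] at h1
    have h02 : 1 * y' + mat p 0 1 * (-sigmaQ hF (mat p 0 1 * c)) + mat p 0 2 * 1 =
        1 * mat p 0 2 + mat p 0 1 * c * mat p 1 2 + y' * 1 := congrFun (congrFun h1 0) 2
    rw [hrel, map_mul] at h02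
    have h3 : mat p 0 1 * sigmaQ hF (mat p 0 1) * (sigmaQ hF c - c) = 0 := by
      linear_combination (-1 : F) * h02
    rcases mul_eq_zero.mp h3 with h | h
    · rcases mul_eq_zero.mp h with h | h
      · exact hx h
      · exact hx ((map_eq_zero (sigmaQ hF)).mp h)
    · exact hc (sub_eq_zero.mp h)
  · obtain ⟨y, hy⟩ := (herm_sigmaQ hF).exists_Q (1 : F)
    refine ⟨ofMat (sigmaQ hF) !![1, 1, y; 0, 1, -sigmaQ hF 1; 0, 0, 1],
      ofMat_uni_mem hF 1 y hy, ?_⟩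
    intro hz
    have h01 := hz.2.1
    rw [mat_ofMat (valid_uni hF 1 y hy)] at h01
    exact one_ne_zero (h01 : (1 : F) = 0)

end Cfsg.Agent.Lib.Helper10.DG33
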